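import Mathlib
import Cfsg.Agent.Lib.Helper9.S3805.Defs
import Cfsg.Agent.Lib.Helper80.CharKer

/-!
# S3805, package `PkgCCong` (helper10)

If `χ` is a character, `u` an involution (or `1`), `v ^ 3 = 1`, `u v = v u` and `χ (u v) = 1`,
then `χ u ≡ 1 (mod 3)`.  Proof with idempotents: with `S = 1 + ρ v + ρ v ^ 2` and `T = ρ u * S`,
the endomorphisms `(S ± T) / 6` are idempotent, so their traces are natural numbers.
-/

set_option autoImplicit false

namespace Cfsg.Agent.Lib.Helper10.S3805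

open Cfsg Cfsg.Agent.Lib.Helper9.S3805

universe u

/-- The trace of an idempotent endomorphism is a natural number. -/
theorem trace_idem_nat {V : Type*} [AddCommGroup V] [Module ℂ V] [FiniteDimensional ℂ V]
    (f : V →ₗ[ℂ] V) (hf : IsIdempotentElem f) : ∃ n : ℕ, LinearMap.trace ℂ V f = (n : ℂ) :=
  ⟨_, (LinearMap.IsIdempotentElem.isProj_range f hf).trace⟩

/-- The linear-algebra core. -/
theorem ccong_end {V : Type*} [AddCommGroup V] [Module ℂ V] [FiniteDimensional ℂ V]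
    (U W : Module.End ℂ V) (hU : U * U = 1) (hW : W * W * W = 1) (hc : U * W = W * U) :
    ∃ m : ℤ, LinearMap.trace ℂ V U + LinearMap.trace ℂ V (U * W) +
      LinearMap.trace ℂ V (U * W * W) = 3 * (m : ℂ) := by
  obtain ⟨S, hS⟩ : ∃ S : Module.End ℂ V, S = 1 + W + W * W := ⟨_, rfl⟩
  obtain ⟨T, hT⟩ : ∃ T : Module.End ℂ V, T = U * S := ⟨_, rfl⟩
  have hWS : W * S = S := by
    rw [hS, mul_add, mul_add, mul_one, ← mul_assoc, hW]
    abel
  have hSS : S * S = (3 : ℂ) • S := by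
    have h1 : S * S = S + W * S + W * (W * S) := by
      nth_rewrite 1 [hS]
      rw [add_mul, add_mul, one_mul, mul_assoc]
    rw [h1, hWS, hWS]
    module
  have cUW : Commute U W := hc
  have cUS : Commute U S := by
    rw [hS]
    exact ((Commute.one_right U).add_right cUW).add_right (cUW.mul_right cUW)
  have hUS : U * S = S * U := cUS
  have hST : S * T = (3 : ℂ) • T := by
    rw [hT, ← mul_assoc, ← hUS, mul_assoc, hSS, mul_smul_comm]
  have hTS : T * S = (3 : ℂ) • T := by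
    rw [hT, mul_assoc, hSS, mul_smul_comm]
  have hTT : T * T = (3 : ℂ) • S := by
    rw [hT, mul_assoc, ← mul_assoc S U S, ← hUS, mul_assoc U S S, ← mul_assoc, hU, one_mul, hSS]
  have hp : (S + T) * (S + T) = (6 : ℂ) • (S + T) := by
    rw [mul_add, add_mul, add_mul, hSS, hST, hTS, hTT]
    module
  have hm : (S - T) * (S - T) = (6 : ℂ) • (S - T) := by
    rw [mul_sub, sub_mul, sub_mul, hSS, hST, hTS, hTT]
    module
  have hep : IsIdempotentElem ((6 : ℂ)⁻¹ • (S + T)) := by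
    show (6 : ℂ)⁻¹ • (S + T) * (6 : ℂ)⁻¹ • (S + T) = (6 : ℂ)⁻¹ • (S + T)
    rw [smul_mul_smul_comm, hp, smul_smul]
    congr 1
    norm_num
  have hem : IsIdempotentElem ((6 : ℂ)⁻¹ • (S - T)) := by
    show (6 : ℂ)⁻¹ • (S - T) * (6 : ℂ)⁻¹ • (S - T) = (6 : ℂ)⁻¹ • (S - T)
    rw [smul_mul_smul_comm, hm, smul_smul]
    congr 1
    norm_num
  obtain ⟨np, hnp⟩ := trace_idem_nat _ hep
  obtain ⟨nm, hnm⟩ := trace_idem_nat _ hem
  rw [map_smul, map_add, smul_eq_mul] at hnp
  rw [map_smul, map_sub, smul_eq_mul] at hnm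
  have hTtr : LinearMap.trace ℂ V T = LinearMap.trace ℂ V U + LinearMap.trace ℂ V (U * W) +
      LinearMap.trace ℂ V (U * W * W) := by
    rw [hT, hS, mul_add, mul_add, mul_one, map_add, map_add, ← mul_assoc]
  refine ⟨(np : ℤ) - (nm : ℤ), ?_⟩
  rw [← hTtr]
  push_cast
  rw [← hnp, ← hnm]
  ring

/-- Package `PkgCCong`. -/
theorem pkgCCong : PkgCCong.{u} := by
  intro G _ _ χ hχ u v hu hv huv h1
  have hinv : χ (u * v * v) = 1 := by
    have e : u * v * v = (u * v)⁻¹ := by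
      symm
      apply inv_eq_of_mul_eq_one_right
      calc u * v * (u * v * v) = u * (v * u) * v * v := by group
        _ = u * (u * v) * v * v := by rw [huv]
        _ = (u * u) * (v * v * v) := by group
        _ = 1 := by rw [hu, hv, one_mul]
    rw [e, Cfsg.Agent.Lib.Helper80.char_inv_eq_conj hχ, h1, map_one]
  obtain ⟨n, ρ, rfl⟩ := hχ
  have hU : ρ u * ρ u = 1 := by rw [← map_mul, hu, map_one]
  have hW : ρ v * ρ v * ρ v = 1 := by rw [← map_mul, ← map_mul, hv, map_one]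
  have hc : ρ u * ρ v = ρ v * ρ u := by rw [← map_mul, ← map_mul, huv]
  obtain ⟨m, hm⟩ := ccong_end (ρ u) (ρ v) hU hW hc
  have e1 : LinearMap.trace ℂ (Fin n → ℂ) (ρ u * ρ v) = ρ.character (u * v) := by
    rw [← map_mul]; rfl
  have e2 : LinearMap.trace ℂ (Fin n → ℂ) (ρ u * ρ v * ρ v) = ρ.character (u * v * v) := by
    rw [← map_mul, ← map_mul]; rfl
  have e0 : LinearMap.trace ℂ (Fin n → ℂ) (ρ u) = ρ.character u := rfl
  rw [e0, e1, e2, h1, hinv] at hm
  refine ⟨m - 1, ?_⟩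
  push_cast
  linear_combination hm

end Cfsg.Agent.Lib.Helper10.S3805
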